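import Cfsg.Agent.Lib.Helper27.U34.Defs

namespace Cfsg.Agent.Lib.Helper27.U34
open scoped commutatorElement

theorem calc_zsq {T : Type*} [Group T] {Z : Subgroup T} (c : Ctx T Z) (z : T) (hz : z ∈ Z) : z * z = 1 :=
  (c.el z).2 hz

theorem calc_mem {T : Type*} [Group T] {Z : Subgroup T} (c : Ctx T Z) (g h : T) : ⁅g, h⁆ ∈ Z := by
  have h1 : ⁅g, h⁆ = ((g * h) * (g * h)) * ((h⁻¹ * g⁻¹ * h) * (h⁻¹ * g⁻¹ * h)) * (h⁻¹ * h⁻¹) := by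
    rw [commutatorElement_def]; group
  rw [h1]
  exact Z.mul_mem (Z.mul_mem (c.sq _) (c.sq _)) (c.sq _)

/-- `h g = g h ⁅g,h⁆` style relation: `g * h = ⁅g,h⁆ * (h * g)`. -/
theorem calc_swap {T : Type*} [Group T] (g h : T) : g * h = ⁅g, h⁆ * (h * g) := by
  rw [commutatorElement_def]; group

theorem calc_mul {T : Type*} [Group T] {Z : Subgroup T} (c : Ctx T Z) (g h k : T) :
    ⁅g, h * k⁆ = ⁅g, h⁆ * ⁅g, k⁆ := by
  have h1 : ⁅g, h * k⁆ = ⁅g, h⁆ * (h * ⁅g, k⁆ * h⁻¹) := by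
    simp only [commutatorElement_def]; group
  rw [h1, ← c.cen _ (calc_mem c g k) h, mul_assoc, mul_inv_cancel, mul_one]

theorem calc_symm {T : Type*} [Group T] {Z : Subgroup T} (c : Ctx T Z) (g h : T) : ⁅h, g⁆ = ⁅g, h⁆ := by
  have h1 : ⁅h, g⁆ = ⁅g, h⁆⁻¹ := by simp only [commutatorElement_def]; group
  have h2 := calc_zsq c _ (calc_mem c g h)
  rw [h1]
  exact inv_eq_of_mul_eq_one_left h2

theorem calc_cen {T : Type*} [Group T] {Z : Subgroup T} (c : Ctx T Z) (g z : T) (hz : z ∈ Z) : ⁅g, z⁆ = 1 := by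
  rw [commutatorElement_def, ← c.cen z hz g, mul_assoc z g, mul_inv_cancel, mul_one, mul_inv_cancel]

/-- CALC. T/Z has exponent 2. ⁅g,h⁆ = g h g⁻¹ h⁻¹ = (g h)^2 (h⁻¹ g⁻¹ h)^2 (h⁻¹)^2 ∈ Z; Z central of exponent 2. -/
theorem calc_all {T : Type*} [Group T] {Z : Subgroup T} (c : Ctx T Z) :
    (∀ g h : T, ⁅g, h⁆ ∈ Z) ∧ (∀ g h k : T, ⁅g, h * k⁆ = ⁅g, h⁆ * ⁅g, k⁆) ∧ (∀ g h : T, ⁅h, g⁆ = ⁅g, h⁆) ∧
    (∀ g h : T, ∀ z ∈ Z, ⁅g, h * z⁆ = ⁅g, h⁆) ∧ (∀ g h : T, ∀ z ∈ Z, ⁅g * z, h⁆ = ⁅g, h⁆) ∧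
    (∀ g h : T, (g * h) * (g * h) = (g * g) * (h * h) * ⁅g, h⁆) ∧ (∀ z ∈ Z, z * z = 1) ∧
    (∀ g : T, ∀ z ∈ Z, (g * z) * (g * z) = g * g) := by
  refine ⟨calc_mem c, calc_mul c, calc_symm c, ?_, ?_, ?_, calc_zsq c, ?_⟩
  · intro g h z hz
    rw [calc_mul c, calc_cen c g z hz, mul_one]
  · intro g h z hz
    rw [calc_symm c h (g * z), calc_mul c, calc_cen c h z hz, mul_one, calc_symm c]
  · intro g h
    -- (g h)(g h) = g (h g) h = g (⁅h,g⁆ g h) h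
    have h1 : (g * h) * (g * h) = g * (h * g) * h := by group
    rw [h1, calc_swap h g, calc_symm c g h]
    have hz := calc_mem c g h
    have h2 : g * (⁅g, h⁆ * (g * h)) * h = (g * ⁅g, h⁆) * (g * h * h) := by group
    rw [h2, ← c.cen _ hz g]
    have h3 : ⁅g, h⁆ * g * (g * h * h) = ⁅g, h⁆ * ((g * g) * (h * h)) := by group
    rw [h3, c.cen _ hz]
  · intro g z hz
    have h1 : (g * z) * (g * z) = g * (z * g) * z := by group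
    rw [h1, c.cen z hz g]
    have h2 : g * (g * z) * z = (g * g) * (z * z) := by group
    rw [h2, calc_zsq c z hz, mul_one]

end Cfsg.Agent.Lib.Helper27.U34
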