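import Cfsg.Agent.Lib.Helper27.U34.Defs
import Cfsg.Agent.Lib.Helper27.U34.CALC

namespace Cfsg.Agent.Lib.Helper27.U34
open scoped commutatorElement

/-- AB. Z is normal (central), V = T ⧸ Z has 16 elements, exponent 2, commutative. A = {g | g⁻¹ * τ g ∈ Z} is a subgroup ≥ Z. φ : T → V, g ↦ mk (g * τ g) is a hom with kernel A and image inside A/Z, so 16 = |T/A| |A/Z| ≤ |A/Z|^2: |A/Z| ≥ 4, |A| ≥ 16. Take a ∈ A \ Z, b ∈ A outside Z ∪ aZ (8 elements). -/
theorem exists_ab {T : Type*} [Group T] {Z : Subgroup T} (c : Ctx T Z) (τ : MulAut T)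
    (h2 : ∀ g, τ (τ g) = g) :
    ∃ a b : T, a ∉ Z ∧ b ∉ Z ∧ a * b ∉ Z ∧ a⁻¹ * τ a ∈ Z ∧ b⁻¹ * τ b ∈ Z := by
  classical
  haveI : Finite T := Nat.finite_of_card_ne_zero (by rw [c.cardT]; norm_num)
  haveI : Z.Normal := ⟨fun z hz g => by
    rw [← c.cen z hz g, mul_inv_cancel_right]
    exact hz⟩
  have hsq : ∀ v : T ⧸ Z, v * v = 1 := by
    intro v
    induction v using QuotientGroup.induction_on with
    | H g =>
      rw [← QuotientGroup.mk_mul, QuotientGroup.eq_one_iff]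
      exact c.sq g
  have hinv : ∀ v : T ⧸ Z, v⁻¹ = v := fun v => inv_eq_of_mul_eq_one_left (hsq v)
  have hcomm : ∀ x y : T ⧸ Z, x * y = y * x := by
    intro x y
    calc x * y = (x * y)⁻¹ := (hinv _).symm
      _ = y⁻¹ * x⁻¹ := mul_inv_rev _ _
      _ = y * x := by rw [hinv, hinv]
  let τ' : T ⧸ Z →* T ⧸ Z := QuotientGroup.map Z Z τ.toMonoidHom (fun z hz => c.aut τ hz)
  have hτmk : ∀ g : T, τ' (g : T ⧸ Z) = ((τ g : T) : T ⧸ Z) := fun g => rfl
  have hττ : ∀ v, τ' (τ' v) = v := by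
    intro v
    induction v using QuotientGroup.induction_on with
    | H g => rw [hτmk, hτmk, h2]
  have hφ : ∀ x y : T ⧸ Z, x * y * τ' (x * y) = x * τ' x * (y * τ' y) := by
    intro x y
    rw [map_mul]
    simp only [mul_assoc]
    congr 1
    rw [← mul_assoc, hcomm y, mul_assoc]
  let φ : T ⧸ Z →* T ⧸ Z := MonoidHom.mk' (fun v => v * τ' v) hφ
  have hφa : ∀ v, φ v = v * τ' v := fun v => rfl
  have hrk : φ.range ≤ φ.ker := by
    rintro _ ⟨v, rfl⟩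
    rw [MonoidHom.mem_ker, hφa, hφa, map_mul, hττ, mul_assoc, ← mul_assoc (τ' v), hsq, one_mul, hsq]
  have hV : Nat.card (T ⧸ Z) = 16 := by
    have := Subgroup.card_eq_card_quotient_mul_card_subgroup Z
    rw [c.cardT, c.cardZ] at this
    omega
  have h1 := Subgroup.card_eq_card_quotient_mul_card_subgroup φ.ker
  rw [hV, Nat.card_congr (QuotientGroup.quotientKerEquivRange φ).toEquiv] at h1
  have h3 : Nat.card φ.range ≤ Nat.card φ.ker := Subgroup.card_le_of_le hrk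
  have h4 : 2 < Nat.card φ.ker := by
    by_contra hcon
    have h5 : Nat.card φ.ker ≤ 2 := by omega
    have h6 : Nat.card φ.range ≤ 2 := le_trans h3 h5
    have : Nat.card φ.range * Nat.card φ.ker ≤ 2 * 2 := Nat.mul_le_mul h6 h5
    omega
  haveI : Fintype φ.ker := Fintype.ofFinite _
  rw [Nat.card_eq_fintype_card, Fintype.two_lt_card_iff] at h4
  obtain ⟨x, y, z, hxy, hxz, hyz⟩ := h4
  have key : ∃ a b : T ⧸ Z, a ∈ φ.ker ∧ b ∈ φ.ker ∧ a ≠ 1 ∧ b ≠ 1 ∧ a ≠ b := by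
    have hxy' : (x : T ⧸ Z) ≠ y := fun h => hxy (Subtype.ext h)
    have hxz' : (x : T ⧸ Z) ≠ z := fun h => hxz (Subtype.ext h)
    have hyz' : (y : T ⧸ Z) ≠ z := fun h => hyz (Subtype.ext h)
    by_cases hx : (x : T ⧸ Z) = 1
    · exact ⟨y, z, y.2, z.2, fun h => hxy' (hx.trans h.symm), fun h => hxz' (hx.trans h.symm), hyz'⟩
    · by_cases hy : (y : T ⧸ Z) = 1
      · exact ⟨x, z, x.2, z.2, hx, fun h => hyz' (hy.trans h.symm), hxz'⟩
      · exact ⟨x, y, x.2, y.2, hx, hy, hxy'⟩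
  obtain ⟨a', b', ha, hb, ha1, hb1, hab⟩ := key
  obtain ⟨a, rfl⟩ := QuotientGroup.mk_surjective a'
  obtain ⟨b, rfl⟩ := QuotientGroup.mk_surjective b'
  have hmem : ∀ g : T, (g : T ⧸ Z) ∈ φ.ker → g⁻¹ * τ g ∈ Z := by
    intro g hg
    rw [MonoidHom.mem_ker, hφa, hτmk, ← QuotientGroup.mk_mul, QuotientGroup.eq_one_iff] at hg
    have : g⁻¹ * τ g = (g * g)⁻¹ * (g * τ g) := by group
    rw [this]
    exact Z.mul_mem (Z.inv_mem (c.sq g)) hg
  refine ⟨a, b, ?_, ?_, ?_, hmem a ha, hmem b hb⟩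
  · intro h
    exact ha1 ((QuotientGroup.eq_one_iff a).2 h)
  · intro h
    exact hb1 ((QuotientGroup.eq_one_iff b).2 h)
  · intro h
    have h7 : (a : T ⧸ Z) * (b : T ⧸ Z) = 1 := by
      rw [← QuotientGroup.mk_mul]
      exact (QuotientGroup.eq_one_iff _).2 h
    apply hab
    calc (a : T ⧸ Z) = ((a : T ⧸ Z)⁻¹) := (hinv _).symm
      _ = b := inv_eq_of_mul_eq_one_right h7

end Cfsg.Agent.Lib.Helper27.U34
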