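import Cfsg.Agent.Lib.Helper27.U34.Defs

namespace Cfsg.Agent.Lib.Helper27.U34
open scoped commutatorElement

/-- C0. Z ≠ 1 (card 4): z ∈ Z, z ≠ 1. If τ z = z take z. Else c0 = z * τ z: fixed (Z commutative, h2), ≠ 1 since z⁻¹ = z ≠ τ z. -/
theorem exists_c0 {T : Type*} [Group T] {Z : Subgroup T} (c : Ctx T Z) (τ : MulAut T)
    (h2 : ∀ g, τ (τ g) = g) : ∃ c0 ∈ Z, c0 ≠ 1 ∧ τ c0 = c0 := by
  have hne : ∃ z ∈ Z, z ≠ 1 := by
    by_contra hcon
    push Not at hcon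
    have hbot : Z = ⊥ := (Subgroup.eq_bot_iff_forall _).2 hcon
    have h := c.cardZ
    rw [hbot, Subgroup.card_bot] at h
    norm_num at h
  obtain ⟨z, hz, hz1⟩ := hne
  by_cases hτ : τ z = z
  · exact ⟨z, hz, hz1, hτ⟩
  · refine ⟨z * τ z, Z.mul_mem hz (c.aut τ hz), ?_, ?_⟩
    · intro h
      have hzz : z * z = 1 := (c.el z).2 hz
      apply hτ
      have h3 : z * τ z = z * z := by rw [h, hzz]
      exact mul_left_cancel h3
    · rw [map_mul, h2, c.cen (τ z) (c.aut τ hz) z]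

end Cfsg.Agent.Lib.Helper27.U34
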