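import Cfsg.Agent.Lib.Helper27.U34.Defs

namespace Cfsg.Agent.Lib.Helper27.U34

/-- CA. -/
theorem caseA {T : Type*} [Group T] {Z : Subgroup T} (c : Ctx T Z) (ρ : MulAut T)
    (h3 : ∀ g, ρ (ρ (ρ g)) = g) (hZ : ∀ z ∈ Z, ρ z = z) : ∀ g, ρ g = g := by
  intro g
  set w : T := g⁻¹ * ρ g with hw
  have h1 : w * ρ w * ρ (ρ w) = 1 := by
    rw [hw]
    simp only [map_mul, map_inv, h3]
    group
  have hsq : ∀ x : T, ρ x * ρ x = x * x := by
    intro x
    rw [← map_mul]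
    exact hZ _ (c.sq x)
  have hwZ : w ∈ Z := by
    apply c.tri w (ρ w) (ρ (ρ w))
    · rw [h1]; exact one_mem Z
    · exact (hsq w).symm
    · exact (hsq (ρ w)).symm
  have hρw : ρ w = w := hZ w hwZ
  have hww : w * w = 1 := (c.el w).2 hwZ
  rw [hρw, hρw, hww, one_mul] at h1
  have : g⁻¹ * ρ g = 1 := h1
  exact (inv_mul_eq_one.mp this).symm

end Cfsg.Agent.Lib.Helper27.U34
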