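import Cfsg.Agent.Lib.Helper27.U34.Defs

namespace Cfsg.Agent.Lib.Helper27.U34
open scoped commutatorElement

/-- TRIF. If x ≠ 0: u = y/x, v = z/x, 1+u+v = 0, u^5 = v^5 = 1; (1+u)^5 = (1+u^4)(1+u) = u + u^4 (char 2, u^5 = 1), so u + u^4 = 1, times u: u^2 + 1 = u, so u^3 = 1, u^2 = u^5 = 1, u = 1, 1+1+1 = 0: contradiction. -/
theorem trif {F : Type*} [Field F] (h2 : (2 : F) = 0) (x y z : F) (h : x + y + z = 0)
    (h1 : x ^ 4 * x = y ^ 4 * y) (h3 : y ^ 4 * y = z ^ 4 * z) : x = 0 := by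
  by_contra hx
  have hz : z = x + y := by linear_combination h - (x + y) * h2
  subst hz
  have e1 : x * (x ^ 4 - x ^ 3 * y - y ^ 4) = 0 := by
    linear_combination (-1 : F) * h3
      - (3 * x ^ 4 * y + 5 * x ^ 3 * y ^ 2 + 5 * x ^ 2 * y ^ 3 + 3 * x * y ^ 4) * h2
  have e2 : x ^ 4 - x ^ 3 * y - y ^ 4 = 0 := (mul_eq_zero.1 e1).resolve_left hx
  have e3 : x ^ 3 * (x ^ 2 - x * y + y ^ 2) = 0 := by
    linear_combination (-y) * e2 + h1
  have e4 : x ^ 2 - x * y + y ^ 2 = 0 := (mul_eq_zero.1 e3).resolve_left (pow_ne_zero 3 hx)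
  have e5 : x ^ 3 + y ^ 3 = 0 := by linear_combination (x + y) * e4
  have e6 : x ^ 3 * (x ^ 2 + y ^ 2) = 0 := by linear_combination h1 + y ^ 2 * e5
  have e7 : x ^ 2 + y ^ 2 = 0 := (mul_eq_zero.1 e6).resolve_left (pow_ne_zero 3 hx)
  have e8 : x * y = 0 := by linear_combination e7 - e4
  have hy : y = 0 := (mul_eq_zero.1 e8).resolve_left hx
  subst hy
  apply hx
  have : x ^ 2 = 0 := by linear_combination e7
  exact pow_eq_zero_iff (two_ne_zero) |>.1 this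

end Cfsg.Agent.Lib.Helper27.U34
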