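import Cfsg.Agent.Lib.Helper27.U34.Defs
import Cfsg.Agent.Lib.Helper65.SU3Sylow
import Cfsg.Agent.Lib.Helper27.U34.TRIF

namespace Cfsg.Agent.Lib.Helper27.U34
open scoped commutatorElement

/-- COORD. API of Helper65/SU3Coord.lean (ns Cfsg.Agent.Lib.Helper65.SU3E, Coord.*): mem_center_iff (g ∈ center ↔ fa g = 0), sq_eq_one_iff, fa_sq, fb_sq (fb (g*g) = fa g ^ q * fa g), card_eq, card_center, fa_mul, two_eq_zero_of hK 2 rfl. hK : card F = 4 ^ 2. tri: trif with fa x, fa y, fa z (x*x = y*y gives fb equal). -/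
theorem ctx_of_coord {F : Type*} [Field F] [Fintype F] (hF : Fintype.card F = 16) {T : Type*} [Group T]
    (C : Cfsg.Agent.Lib.Helper65.SU3E.Coord F 4 T) : Ctx T (Subgroup.center T) := by
  have hK : Fintype.card F = 4 ^ 2 := by rw [hF]; norm_num
  have h2 : (2 : F) = 0 := Cfsg.Agent.Lib.Helper65.SU3E.two_eq_zero_of hK 2 (by norm_num)
  refine ⟨?_, ?_, ?_, ?_, ?_, ?_⟩
  · intro z hz g
    exact (Subgroup.mem_center_iff.1 hz g).symm
  · intro g
    rw [C.mem_center_iff hK h2]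
    exact C.fa_sq h2 g
  · intro g
    rw [C.mem_center_iff hK h2]
    exact C.sq_eq_one_iff h2 (by norm_num) g
  · rw [C.card_center hK h2]
  · rw [C.card_eq hK h2]; norm_num
  · intro x y z hxyz h1 h3
    rw [C.mem_center_iff hK h2] at hxyz ⊢
    rw [C.fa_mul, C.fa_mul] at hxyz
    have e1 := congrArg C.fb h1
    rw [C.fb_sq h2, C.fb_sq h2] at e1
    have e3 := congrArg C.fb h3
    rw [C.fb_sq h2, C.fb_sq h2] at e3
    exact trif h2 _ _ _ hxyz e1 e3

end Cfsg.Agent.Lib.Helper27.U34
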