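import Cfsg.Agent.Lib.Helper27.U34.Defs

namespace Cfsg.Agent.Lib.Helper27.U34
open scoped commutatorElement

/-- ENUM. p = c0 * ρ c0 * ρ (ρ c0) ∈ Z is fixed by ρ (Z commutative, h3), so p = 1. ρ c0 ≠ c0 etc. by hf. 1, c0, ρ c0, ρ (ρ c0) are 4 distinct elements of Z, card Z = 4. -/
theorem enumZ {T : Type*} [Group T] {Z : Subgroup T} (c : Ctx T Z) (ρ : MulAut T)
    (h3 : ∀ g, ρ (ρ (ρ g)) = g) (hf : ∀ z ∈ Z, ρ z = z → z = 1) (c0 : T) (hc0 : c0 ∈ Z) (hc1 : c0 ≠ 1) :
    (∀ z ∈ Z, z = 1 ∨ z = c0 ∨ z = ρ c0 ∨ z = ρ (ρ c0)) ∧ c0 * ρ c0 * ρ (ρ c0) = 1 ∧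
      ρ c0 ≠ c0 ∧ ρ (ρ c0) ≠ c0 ∧ ρ (ρ c0) ≠ ρ c0 := by
  classical
  have ha := hc0
  have hb : ρ c0 ∈ Z := c.aut ρ hc0
  have hd : ρ (ρ c0) ∈ Z := c.aut ρ hb
  have hba : ρ c0 ≠ c0 := fun h => hc1 (hf c0 hc0 h)
  have hda : ρ (ρ c0) ≠ c0 := by
    intro h
    apply hba
    have h4 := congrArg ρ h
    rw [h3] at h4
    exact h4.symm
  have hdb : ρ (ρ c0) ≠ ρ c0 := fun h => hba (ρ.injective h)
  have hb1 : ρ c0 ≠ 1 := fun h => hc1 (ρ.injective (h.trans (map_one ρ).symm))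
  have hd1 : ρ (ρ c0) ≠ 1 := fun h => hb1 (ρ.injective (h.trans (map_one ρ).symm))
  have hp : c0 * ρ c0 * ρ (ρ c0) = 1 := by
    apply hf _ (Z.mul_mem (Z.mul_mem ha hb) hd)
    rw [map_mul, map_mul, h3, mul_assoc c0, c.cen c0 hc0]
  refine ⟨?_, hp, hba, hda, hdb⟩
  have hfin : Finite Z := Nat.finite_of_card_ne_zero (by rw [c.cardZ]; norm_num)
  generalize hbe : ρ c0 = b at *
  generalize hde : ρ b = d at *
  have hcard : ({1, c0, b, d} : Finset T).card = 4 := by
    rw [Finset.card_insert_of_notMem (by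
        simp only [Finset.mem_insert, Finset.mem_singleton, not_or]
        exact ⟨hc1.symm, hb1.symm, hd1.symm⟩),
      Finset.card_insert_of_notMem (by
        simp only [Finset.mem_insert, Finset.mem_singleton, not_or]
        exact ⟨hba.symm, hda.symm⟩),
      Finset.card_insert_of_notMem (by
        simp only [Finset.mem_singleton]
        exact hdb.symm), Finset.card_singleton]
  have hS : ((({1, c0, b, d} : Finset T) : Set T)) = (Z : Set T) := by
    apply Set.eq_of_subset_of_ncard_le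
    · intro x hx
      simp only [Finset.coe_insert, Finset.coe_singleton, Set.mem_insert_iff,
        Set.mem_singleton_iff] at hx
      rcases hx with rfl | rfl | rfl | rfl
      · exact Z.one_mem
      · exact ha
      · exact hb
      · exact hd
    · rw [Set.ncard_coe_finset, hcard, ← Nat.card_coe_set_eq]
      exact le_of_eq c.cardZ
    · exact Set.toFinite _
  intro z hz
  have hz' : z ∈ (({1, c0, b, d} : Finset T) : Set T) := by rw [hS]; exact hz
  simpa using hz'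

end Cfsg.Agent.Lib.Helper27.U34
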