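import Cfsg.Agent.Lib.Helper27.U34.Defs
import Cfsg.Agent.Lib.Helper27.U34.CALC

namespace Cfsg.Agent.Lib.Helper27.U34
open scoped commutatorElement

/-- SUM. u = b * ρ b * ρ (ρ b). ρ u = ρ b * ρρ b * b = u * (element of Z) (T/Z commutative: calc_all), so ρ (u*u) = u*u, u*u = 1 (hf, c.sq), u ∈ Z (c.el). -/
theorem sum_mem {T : Type*} [Group T] {Z : Subgroup T} (c : Ctx T Z) (ρ : MulAut T)
    (h3 : ∀ g, ρ (ρ (ρ g)) = g) (hf : ∀ z ∈ Z, ρ z = z → z = 1) (b : T) :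
    b * ρ b * ρ (ρ b) ∈ Z := by
  obtain ⟨hc, -, -, -, -, -, -, hz⟩ := calc_all c
  have h1 : ρ (b * ρ b * ρ (ρ b)) =
      (b * ρ b * ρ (ρ b)) * ⁅(b * ρ b * ρ (ρ b))⁻¹, b⁻¹⁆ := by
    rw [map_mul, map_mul, h3]
    simp only [commutatorElement_def]
    group
  have h2 : ρ ((b * ρ b * ρ (ρ b)) * (b * ρ b * ρ (ρ b))) =
      (b * ρ b * ρ (ρ b)) * (b * ρ b * ρ (ρ b)) := by
    rw [map_mul ρ (b * ρ b * ρ (ρ b)) (b * ρ b * ρ (ρ b)), h1]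
    exact hz _ _ (hc _ _)
  exact (c.el _).1 (hf _ (c.sq _) h2)

end Cfsg.Agent.Lib.Helper27.U34
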