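import Cfsg.Agent.Lib.Helper27.U34.Defs
import Cfsg.Agent.Lib.Helper27.U34.CALC
import Cfsg.Agent.Lib.Helper27.U34.ENUM
import Cfsg.Agent.Lib.Helper27.U34.SUM

namespace Cfsg.Agent.Lib.Helper27.U34
open scoped commutatorElement

/-- DICH. k = ⁅a, ρ b⁆ ∈ Z. ⁅a,b⁆ = c0 from (ab)^2 = a^2 b^2 ⁅a,b⁆. τ k = ⁅τ a, τ (ρ b)⁆ = ⁅a, ρ (ρ (τ b))⁆ = ⁅a, ρ (ρ b)⁆ (drop central factors; ρρ maps Z to Z). ρρ b = (b * ρ b)⁻¹ * z (sum_mem) and x⁻¹ = x * (x*x)⁻¹ ≡ x mod Z, so ⁅a, ρρ b⁆ = ⁅a,b⁆ * ⁅a, ρ b⁆ = c0 * k.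
So τ k = c0 * k ≠ k. By enumZ k ∈ {1, c0, ρ c0, ρρ c0}; τ 1 = 1, τ c0 = c0 exclude the first two. Also returns ⁅a, ρ (ρ b)⁆ = c0 * k. -/
theorem dich {T : Type*} [Group T] {Z : Subgroup T} (c : Ctx T Z) (ρ τ : MulAut T)
    (h3 : ∀ g, ρ (ρ (ρ g)) = g) (hτρ : ∀ g, τ (ρ g) = ρ (ρ (τ g)))
    (hf : ∀ z ∈ Z, ρ z = z → z = 1) (c0 : T) (hc0 : c0 ∈ Z) (hc1 : c0 ≠ 1) (hτc : τ c0 = c0)
    (a b : T) (haa : a * a = c0) (hbb : b * b = c0) (hab : (a * b) * (a * b) = c0)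
    (haτ : a⁻¹ * τ a ∈ Z) (hbτ : b⁻¹ * τ b ∈ Z) :
    (⁅a, ρ b⁆ = ρ c0 ∨ ⁅a, ρ b⁆ = ρ (ρ c0)) ∧ ⁅a, ρ (ρ b)⁆ = c0 * ⁅a, ρ b⁆ := by
  obtain ⟨hmem, hmul, hsymm, hrz, hlz, hsq, hzz, hgz⟩ := calc_all c
  have hcc : c0 * c0 = 1 := hzz c0 hc0
  have h1 : ⁅a, b⁆ = c0 := by
    have := hsq a b
    rw [hab, haa, hbb, hcc, one_mul] at this
    exact this.symm
  have hk : ⁅a, ρ b⁆ ∈ Z := hmem _ _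
  have hck : c0 * ⁅a, ρ b⁆ ∈ Z := Z.mul_mem hc0 hk
  have h2 : ⁅a, ρ (ρ b)⁆ = c0 * ⁅a, ρ b⁆ := by
    have hu := sum_mem c ρ h3 hf b
    have e1 : ⁅a, b * ρ b * ρ (ρ b)⁆ = 1 := calc_cen c a _ hu
    rw [hmul, hmul, h1] at e1
    have e2 := hzz _ hck
    exact mul_left_cancel (e1.trans e2.symm)
  have h3' : τ ⁅a, ρ b⁆ = c0 * ⁅a, ρ b⁆ := by
    have ea : τ a = a * (a⁻¹ * τ a) := by group
    have eb : τ b = b * (b⁻¹ * τ b) := by group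
    have e3 : τ (ρ b) = ρ (ρ b) * ρ (ρ (b⁻¹ * τ b)) := by
      rw [hτρ, ← map_mul, ← map_mul, ← eb]
    rw [map_commutatorElement, e3, ea, hlz _ _ _ haτ, hrz _ _ _ (c.aut ρ (c.aut ρ hbτ)), h2]
  refine ⟨?_, h2⟩
  obtain ⟨henum, -⟩ := enumZ c ρ h3 hf c0 hc0 hc1
  rcases henum _ hk with h4 | h4 | h4 | h4
  · exfalso
    rw [h4, map_one, mul_one] at h3'
    exact hc1 h3'.symm
  · exfalso
    rw [h4, hτc, hcc] at h3'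
    exact hc1 h3'
  · exact Or.inl h4
  · exact Or.inr h4

end Cfsg.Agent.Lib.Helper27.U34
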