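import Mathlib

/-! Ladder U34 (S3156): Aut of a Sylow 2-subgroup of U3(4) has no S3. Definitions. -/

namespace Cfsg.Agent.Lib.Helper27.U34

/-- abstract properties of `T` = Sylow 2-subgroup of `U_3(4)`, `Z = Z(T)`. -/
structure Ctx (T : Type*) [Group T] (Z : Subgroup T) : Prop where
  cen : ∀ z ∈ Z, ∀ g : T, z * g = g * z
  sq : ∀ g : T, g * g ∈ Z
  el : ∀ g : T, g * g = 1 ↔ g ∈ Z
  cardZ : Nat.card Z = 4
  cardT : Nat.card T = 64
  tri : ∀ x y z : T, x * y * z ∈ Z → x * x = y * y → y * y = z * z → x ∈ Z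

theorem Ctx.aut {T : Type*} [Group T] {Z : Subgroup T} (c : Ctx T Z) (α : MulAut T) {g : T}
    (hg : g ∈ Z) : α g ∈ Z := by
  rw [← c.el] at hg ⊢
  rw [← map_mul, hg, map_one]

end Cfsg.Agent.Lib.Helper27.U34
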