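import Cfsg.Agent.Lib.Helper27.U34.Defs
import Cfsg.Agent.Lib.Helper27.U34.CALC
import Cfsg.Agent.Lib.Helper27.U34.ENUM
import Cfsg.Agent.Lib.Helper27.U34.DICH

namespace Cfsg.Agent.Lib.Helper27.U34
open scoped commutatorElement

/-- FINB (helper73). dich for (a,b): k = ⁅a, ρ b⁆. If k = ρρ c0: (a * ρ b)^2 = a^2 (ρ b)^2 k = c0 * ρ c0 * ρρ c0 = 1 (enumZ), so a * ρ b ∈ Z, ρ b = a⁻¹ * z, (ρ b)^2 = (a⁻¹)^2 = (a*a)⁻¹ : ρ c0 = c0⁻¹ = c0: contradiction.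
If k = ρ c0: ⁅b, ρ a⁆ = ρ ⁅ρ (ρ b), a⁆ (h3) = ρ ⁅a, ρ (ρ b)⁆ = ρ (c0 * ρ c0) = c0; but dich for (b,a) gives ⁅b, ρ a⁆ ∈ {ρ c0, ρρ c0}: contradiction. -/
theorem finB {T : Type*} [Group T] {Z : Subgroup T} (c : Ctx T Z) (ρ τ : MulAut T)
    (h3 : ∀ g, ρ (ρ (ρ g)) = g) (hτρ : ∀ g, τ (ρ g) = ρ (ρ (τ g)))
    (hf : ∀ z ∈ Z, ρ z = z → z = 1) (c0 : T) (hc0 : c0 ∈ Z) (hc1 : c0 ≠ 1) (hτc : τ c0 = c0)
    (a b : T) (haa : a * a = c0) (hbb : b * b = c0) (hab : (a * b) * (a * b) = c0)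
    (haτ : a⁻¹ * τ a ∈ Z) (hbτ : b⁻¹ * τ b ∈ Z) : False := by
  obtain ⟨hcomZ, hbil, hsym, hrz, hlz, hsq, hz2, hgz⟩ := calc_all c
  obtain ⟨henum, hprod, hne1, hne2, hne3⟩ := enumZ c ρ h3 hf c0 hc0 hc1
  obtain ⟨hk, hk2⟩ := dich c ρ τ h3 hτρ hf c0 hc0 hc1 hτc a b haa hbb hab haτ hbτ
  have hc00 : c0 * c0 = 1 := hz2 c0 hc0
  have hρbb : ρ b * ρ b = ρ c0 := by rw [← map_mul, hbb]
  rcases hk with hk | hk
  · -- k = ρ c0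
    have h0 := hsq a b
    rw [hab, haa, hbb] at h0
    have hba : (b * a) * (b * a) = c0 := by
      rw [hsq b a, hbb, haa, hsym a b]
      exact h0.symm
    obtain ⟨hk', -⟩ := dich c ρ τ h3 hτρ hf c0 hc0 hc1 hτc b a hbb haa hba hbτ haτ
    have h5 : ⁅b, ρ a⁆ = ρ ⁅ρ (ρ b), a⁆ := by rw [map_commutatorElement, h3]
    have h6 : ⁅b, ρ a⁆ = c0 := by
      rw [h5, hsym a (ρ (ρ b)), hk2, hk, map_mul]
      have h7 : c0 * (ρ c0 * ρ (ρ c0)) = 1 := by rw [← mul_assoc]; exact hprod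
      calc ρ c0 * ρ (ρ c0) = c0 * (c0 * (ρ c0 * ρ (ρ c0))) := by rw [← mul_assoc c0 c0, hc00, one_mul]
        _ = c0 := by rw [h7, mul_one]
    rcases hk' with h | h
    · exact hne1 (h.symm.trans h6)
    · exact hne2 (h.symm.trans h6)
  · -- k = ρ (ρ c0)
    have h1 : (a * ρ b) * (a * ρ b) = 1 := by rw [hsq, haa, hρbb, hk, hprod]
    have hz : a * ρ b ∈ Z := (c.el _).1 h1
    have h3' : ρ b * ρ b = a⁻¹ * a⁻¹ := by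
      calc ρ b * ρ b = (a⁻¹ * (a * ρ b)) * (a⁻¹ * (a * ρ b)) := by group
        _ = a⁻¹ * a⁻¹ := hgz a⁻¹ _ hz
    have h4 : a⁻¹ * a⁻¹ = c0 := by
      have h8 : a⁻¹ * a⁻¹ = (a * a)⁻¹ := by group
      rw [h8, haa]
      exact inv_eq_of_mul_eq_one_left hc00
    exact hne1 (by rw [← hρbb, h3', h4])

end Cfsg.Agent.Lib.Helper27.U34
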