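import Cfsg.Agent.Lib.Helper27.U34.Defs

namespace Cfsg.Agent.Lib.Helper27.U34
open scoped commutatorElement

/-- FPF. Suppose z ≠ 1, z ∈ Z fixed. z0 ∉ {1, z}. {1, z, z0, z*z0} are 4 distinct elements of Z (card 4), so ρ z0 ∈ Z (c.aut) is one of them, not 1, z (injectivity: ρ 1 = 1, ρ z = z), not z0: ρ z0 = z * z0, ρ (ρ z0) = z * (z * z0) = z0, ρ^3 z0 = ρ z0 ≠ z0. -/
theorem fpfZ {T : Type*} [Group T] {Z : Subgroup T} (c : Ctx T Z) (ρ : MulAut T)
    (h3 : ∀ g, ρ (ρ (ρ g)) = g) (z0 : T) (hz0 : z0 ∈ Z) (hne : ρ z0 ≠ z0) :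
    ∀ z ∈ Z, ρ z = z → z = 1 := by
  classical
  intro z hz hfix
  by_contra hz1
  have hzz : z * z = 1 := (c.el z).2 hz
  have hinj := ρ.injective
  have m02 : z0 ≠ 1 := by
    rintro rfl
    exact hne (map_one ρ)
  have m12 : z0 ≠ z := by
    rintro rfl
    exact hne hfix
  have m03 : z * z0 ≠ 1 := by
    intro h
    apply m12
    calc z0 = (z * z) * z0 := by rw [hzz, one_mul]
      _ = z * (z * z0) := by rw [mul_assoc]
      _ = z := by rw [h, mul_one]
  have m04 : ρ z0 ≠ 1 := by
    intro h
    exact m02 (hinj (by rw [h, map_one]))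
  have m13 : z * z0 ≠ z := by
    intro h
    exact m02 (mul_left_cancel (h.trans (mul_one z).symm))
  have m14 : ρ z0 ≠ z := by
    intro h
    exact m12 (hinj (by rw [h, hfix]))
  have m23 : z * z0 ≠ z0 := by
    intro h
    exact hz1 (mul_right_cancel (h.trans (one_mul z0).symm))
  have m34 : ρ z0 ≠ z * z0 := by
    intro h
    apply hne
    have h1 : ρ (ρ z0) = z0 := by rw [h, map_mul, hfix, h, ← mul_assoc, hzz, one_mul]
    have h2 := h3 z0
    rw [h1] at h2
    exact h2
  have hS : ({1, z, z0, z * z0, ρ z0} : Finset T).card = 5 := by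
    rw [Finset.card_insert_of_notMem, Finset.card_insert_of_notMem, Finset.card_insert_of_notMem,
      Finset.card_insert_of_notMem, Finset.card_singleton]
    · rw [Finset.mem_singleton]
      exact m34.symm
    · rw [Finset.mem_insert, Finset.mem_singleton]
      rintro (h | h)
      · exact m23 h.symm
      · exact hne h.symm
    · rw [Finset.mem_insert, Finset.mem_insert, Finset.mem_singleton]
      rintro (h | h | h)
      · exact m12 h.symm
      · exact m13 h.symm
      · exact m14 h.symm
    · rw [Finset.mem_insert, Finset.mem_insert, Finset.mem_insert, Finset.mem_singleton]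
      rintro (h | h | h | h)
      · exact hz1 h.symm
      · exact m02 h.symm
      · exact m03 h.symm
      · exact m04 h.symm
  have hsub : (({1, z, z0, z * z0, ρ z0} : Finset T) : Set T) ⊆ (Z : Set T) := by
    intro x hx
    simp only [Finset.coe_insert, Finset.coe_singleton, Set.mem_insert_iff,
      Set.mem_singleton_iff] at hx
    rcases hx with rfl | rfl | rfl | rfl | rfl
    · exact Z.one_mem
    · exact hz
    · exact hz0
    · exact Z.mul_mem hz hz0
    · exact c.aut ρ hz0
  have hfin : (Z : Set T).Finite := by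
    have : Finite Z := Nat.finite_of_card_ne_zero (by rw [c.cardZ]; norm_num)
    exact Set.toFinite _
  have hle := Set.ncard_le_ncard hsub hfin
  rw [Set.ncard_coe_finset, hS] at hle
  have h4 : (Z : Set T).ncard = 4 := by
    rw [← c.cardZ]
    rfl
  omega

end Cfsg.Agent.Lib.Helper27.U34
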