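import Cfsg.Agent.Lib.Helper27.U34.Defs

namespace Cfsg.Agent.Lib.Helper27.U34

/-- S3E. -/
theorem s3_elts {T : Type*} [Group T] (H : Subgroup (MulAut T)) (e : ↥H ≃* Equiv.Perm (Fin 3)) :
    ∃ ρ τ : MulAut T, (∀ g, ρ (ρ (ρ g)) = g) ∧ (∀ g, τ (τ g) = g) ∧ (∀ g, τ (ρ g) = ρ (ρ (τ g))) ∧
      ∃ g, ρ g ≠ g := by
  set r : Equiv.Perm (Fin 3) := c[0, 1, 2] with hr
  set t : Equiv.Perm (Fin 3) := Equiv.swap 0 1 with ht
  have r3 : r * r * r = 1 := by decide
  have t2 : t * t = 1 := by decide
  have tr : t * r = r * r * t := by decide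
  have r1 : r ≠ 1 := by decide
  have R3 : e.symm r * e.symm r * e.symm r = 1 := by
    rw [← map_mul, ← map_mul, r3, map_one]
  have T2 : e.symm t * e.symm t = 1 := by
    rw [← map_mul, t2, map_one]
  have TR : e.symm t * e.symm r = e.symm r * e.symm r * e.symm t := by
    rw [← map_mul, ← map_mul, ← map_mul, tr]
  have R1 : e.symm r ≠ 1 := by
    intro h
    apply r1
    have := congrArg e h
    simpa using this
  refine ⟨(e.symm r).1, (e.symm t).1, ?_, ?_, ?_, ?_⟩
  · intro g
    have := DFunLike.congr_fun (congrArg Subtype.val R3) g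
    simpa using this
  · intro g
    have := DFunLike.congr_fun (congrArg Subtype.val T2) g
    simpa using this
  · intro g
    have := DFunLike.congr_fun (congrArg Subtype.val TR) g
    simpa using this
  · by_contra hc
    push Not at hc
    apply R1
    apply Subtype.ext
    ext g
    exact hc g

end Cfsg.Agent.Lib.Helper27.U34
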