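import Cfsg.Agent.Lib.Helper27.U34.Defs
import Cfsg.Agent.Lib.Helper27.U34.CALC
import Cfsg.Agent.Lib.Helper27.U34.ENUM

namespace Cfsg.Agent.Lib.Helper27.U34
open scoped commutatorElement

/-- SQC. τ g = g * z, z ∈ Z, so τ (g*g) = (g z)(g z) = g*g (calc_all). g*g ∈ Z, ≠ 1 (c.el). By enumZ g*g ∈ {c0, ρ c0, ρρ c0}; τ (ρ c0) = ρ (ρ (τ c0)) = ρ (ρ c0) ≠ ρ c0 and τ (ρ (ρ c0)) = ρ^4 (τ c0) = ρ c0 ≠ ρ (ρ c0). -/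
theorem sq_c0 {T : Type*} [Group T] {Z : Subgroup T} (c : Ctx T Z) (ρ τ : MulAut T)
    (h3 : ∀ g, ρ (ρ (ρ g)) = g) (hτρ : ∀ g, τ (ρ g) = ρ (ρ (τ g)))
    (hf : ∀ z ∈ Z, ρ z = z → z = 1) (c0 : T) (hc0 : c0 ∈ Z) (hc1 : c0 ≠ 1) (hτc : τ c0 = c0)
    (g : T) (hg : g ∉ Z) (hgτ : g⁻¹ * τ g ∈ Z) : g * g = c0 := by
  obtain ⟨-, -, -, -, -, -, -, hlast⟩ := calc_all c
  obtain ⟨hen, -, h10, h20, h21⟩ := enumZ c ρ h3 hf c0 hc0 hc1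
  have e1 : τ g = g * (g⁻¹ * τ g) := by group
  have hτs : τ (g * g) = g * g := by
    rw [map_mul, e1]; exact hlast g _ hgτ
  have hs1 : g * g ≠ 1 := fun h => hg ((c.el g).1 h)
  rcases hen _ (c.sq g) with h | h | h | h
  · exact absurd h hs1
  · exact h
  · exfalso
    rw [h, hτρ, hτc] at hτs
    exact h21 hτs
  · exfalso
    rw [h, hτρ, hτρ, hτc, h3] at hτs
    exact h21 hτs.symm

end Cfsg.Agent.Lib.Helper27.U34
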