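import Cfsg.Agent.Lib.Helper27.U34.Defs
import Cfsg.Agent.Lib.Helper27.U34.S3E
import Cfsg.Agent.Lib.Helper27.U34.CA
import Cfsg.Agent.Lib.Helper27.U34.FPF
import Cfsg.Agent.Lib.Helper27.U34.C0
import Cfsg.Agent.Lib.Helper27.U34.AB
import Cfsg.Agent.Lib.Helper27.U34.SQC
import Cfsg.Agent.Lib.Helper27.U34.FINB

namespace Cfsg.Agent.Lib.Helper27.U34
open scoped commutatorElement

theorem no_s3 {T : Type*} [Group T] {Z : Subgroup T} (c : Ctx T Z) (H : Subgroup (MulAut T))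
    (e : ↥H ≃* Equiv.Perm (Fin 3)) : False := by
  obtain ⟨ρ, τ, h3, h2, hτρ, g0, hg0⟩ := s3_elts H e
  by_cases hZ : ∀ z ∈ Z, ρ z = z
  · exact hg0 (caseA c ρ h3 hZ g0)
  · push Not at hZ
    obtain ⟨z0, hz0, hne⟩ := hZ
    have hf := fpfZ c ρ h3 z0 hz0 hne
    obtain ⟨c0, hc0, hc1, hτc⟩ := exists_c0 c τ h2
    obtain ⟨a, b, ha, hb, hab, haτ, hbτ⟩ := exists_ab c τ h2
    have habτ : (a * b)⁻¹ * τ (a * b) ∈ Z := by
      have e1 : (a * b)⁻¹ * τ (a * b) = b⁻¹ * (a⁻¹ * τ a) * τ b := by rw [map_mul]; group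
      rw [e1, ← c.cen _ haτ, mul_assoc]
      exact Z.mul_mem haτ hbτ
    exact finB c ρ τ h3 hτρ hf c0 hc0 hc1 hτc a b
      (sq_c0 c ρ τ h3 hτρ hf c0 hc0 hc1 hτc a ha haτ) (sq_c0 c ρ τ h3 hτρ hf c0 hc0 hc1 hτc b hb hbτ)
      (sq_c0 c ρ τ h3 hτρ hf c0 hc0 hc1 hτc (a * b) hab habτ) haτ hbτ

end Cfsg.Agent.Lib.Helper27.U34
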